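import Mathlib.RingTheory.Derivation.Basic
import Mathlib.RingTheory.Ideal.Height
import Mathlib.RingTheory.Ideal.KrullsHeightTheorem
import Mathlib.RingTheory.Ideal.MinimalPrime.Noetherian
import Mathlib.RingTheory.LocalRing.MaximalIdeal.Basic
import Mathlib.LinearAlgebra.Dimension.DivisionRing
import Mathlib.LinearAlgebra.LinearIndependent.Lemmas

/-!
# Systems of parameters with linearly independent differentials

Let `A` be a Noetherian local ring, `p ≠ m` a prime ideal of `A`, `K` a field over `A` in which the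
elements outside `p` become nonzero, `V` a `K`-vector space and `δ : A → V` a derivation with
`K`-span equal to `V`.  For `i ≤ dim A`, `i ≤ dim V` there are `x_1, …, x_i ∈ m` generating an ideal
of height at least `i` with `δ x_1, …, δ x_i` linearly independent over `K`.
-/

set_option autoImplicit false

namespace Groth.Agent.Ega4late.H543.Select

open IsLocalRing

variable {k A K V : Type*} [CommRing k] [CommRing A] [IsLocalRing A] [Algebra k A]
  [Field K] [Algebra A K] [AddCommGroup V] [Module k V] [Module A V] [Module K V]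
  [IsScalarTower A K V]

theorem exists_notMem_of_ne_top (δ : Derivation k A V) (p : Ideal A) [p.IsPrime]
    (hp : p ≠ maximalIdeal A) (hK : ∀ a ∉ p, algebraMap A K a ≠ 0)
    (hδ : Submodule.span K (Set.range δ) = ⊤) (W : Submodule K V) (hW : W ≠ ⊤) :
    ∃ a ∈ maximalIdeal A, δ a ∉ W := by
  by_contra! hcon
  obtain ⟨s, hsm, hsp⟩ : ∃ s ∈ maximalIdeal A, s ∉ p := by
    by_contra! h
    exact hp (le_antisymm (le_maximalIdeal Ideal.IsPrime.ne_top') h)
  apply hW
  rw [eq_top_iff, ← hδ, Submodule.span_le]
  rintro _ ⟨a, rfl⟩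
  have h1 : δ (s * a) ∈ W := hcon _ (Ideal.mul_mem_right _ _ hsm)
  rw [Derivation.leibniz] at h1
  have h2 : a • δ s ∈ W := by
    rw [← algebraMap_smul K a]
    exact Submodule.smul_mem _ _ (hcon _ hsm)
  have h3 : s • δ a ∈ W := (Submodule.add_mem_iff_left _ h2).mp h1
  rw [← algebraMap_smul K s] at h3
  exact (Submodule.smul_mem_iff _ (hK s hsp)).mp h3

/-- The choice of one element. -/
theorem exists_step (δ : Derivation k A V) (p : Ideal A) [p.IsPrime]
    (hp : p ≠ maximalIdeal A) (hK : ∀ a ∉ p, algebraMap A K a ≠ 0)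
    (hδ : Submodule.span K (Set.range δ) = ⊤) (W : Submodule K V) (hW : W ≠ ⊤)
    (S : Set (Ideal A)) (hS : S.Finite) (hprime : ∀ P ∈ S, P.IsPrime)
    (hne : ∀ P ∈ S, P ≠ maximalIdeal A) :
    ∃ x ∈ maximalIdeal A, δ x ∉ W ∧ ∀ P ∈ S, x ∉ P := by
  classical
  have hfin : (insert p S).Finite := hS.insert p
  obtain ⟨y, hym, hy⟩ : ∃ y ∈ maximalIdeal A, ∀ P ∈ insert p S, y ∉ P := by
    have h1 : ¬ ((maximalIdeal A : Set A) ⊆ ⋃ P ∈ (insert p S), (P : Set A)) := by
      rw [Ideal.subset_union_prime_finite hfin p p (fun P hP _ _ => by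
        rcases hP with rfl | hP
        · infer_instance
        · exact hprime P hP)]
      rintro ⟨P, hP, hle⟩
      rcases hP with rfl | hP
      · exact hp (le_antisymm (le_maximalIdeal Ideal.IsPrime.ne_top') hle)
      · exact hne P hP (le_antisymm (le_maximalIdeal (hprime P hP).ne_top) hle)
    rw [Set.not_subset] at h1
    obtain ⟨y, hy, hy'⟩ := h1
    refine ⟨y, hy, fun P hP hyP => hy' ?_⟩
    simp only [Set.mem_iUnion]
    exact ⟨P, hP, hyP⟩
  by_cases hyW : δ y ∈ W
  · obtain ⟨a, ham, haW⟩ := exists_notMem_of_ne_top δ p hp hK hδ W hW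
    refine ⟨y * (1 + a), Ideal.mul_mem_right _ _ hym, ?_, fun P hP hmem => ?_⟩
    · intro hcon
      rw [Derivation.leibniz, map_add, Derivation.map_one_eq_zero, zero_add] at hcon
      have h2 : (1 + a) • δ y ∈ W := by
        rw [← algebraMap_smul K (1 + a)]
        exact Submodule.smul_mem _ _ hyW
      have h3 : y • δ a ∈ W := (Submodule.add_mem_iff_left _ h2).mp hcon
      rw [← algebraMap_smul K y] at h3
      exact haW ((Submodule.smul_mem_iff _ (hK y (hy p (Set.mem_insert _ _)))).mp h3)
    · have hPp := hprime P hP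
      rcases hPp.mem_or_mem hmem with h | h
      · exact hy P (Set.mem_insert_of_mem _ hP) h
      · have hu : IsUnit (1 + a) := by
          by_contra hnu
          have h4 : (1 : A) ∈ maximalIdeal A := by
            have h5 : (1 + a) - a ∈ maximalIdeal A := sub_mem ((mem_maximalIdeal _).mpr hnu) ham
            rwa [add_sub_cancel_right] at h5
          exact (maximalIdeal.isMaximal A).ne_top ((Ideal.eq_top_iff_one _).mpr h4)
        exact hPp.ne_top (Ideal.eq_top_of_isUnit_mem _ h hu)
  · exact ⟨y, hym, hyW, fun P hP => hy P (Set.mem_insert_of_mem _ hP)⟩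

/-- The choice of a partial system of parameters with linearly independent differentials. -/
theorem exists_family [IsNoetherianRing A] (δ : Derivation k A V) (p : Ideal A) [p.IsPrime]
    (hp : p ≠ maximalIdeal A) (hK : ∀ a ∉ p, algebraMap A K a ≠ 0)
    (hδ : Submodule.span K (Set.range δ) = ⊤) [FiniteDimensional K V] (i : ℕ)
    (hi : (i : ℕ∞) ≤ (maximalIdeal A).height) (hi' : i ≤ Module.finrank K V) :
    ∃ x : Fin i → A, (∀ j, x j ∈ maximalIdeal A) ∧ LinearIndependent K (fun j => δ (x j)) ∧
      (i : ℕ∞) ≤ (Ideal.span (Set.range x)).height := by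
  induction i with
  | zero =>
    exact ⟨Fin.elim0, fun j => j.elim0, linearIndependent_empty_type, by simp⟩
  | succ i ih =>
    obtain ⟨x, hxm, hlin, hht⟩ := ih (le_trans (by exact_mod_cast Nat.le_succ i) hi) (by omega)
    set W : Submodule K V := Submodule.span K (Set.range fun j => δ (x j)) with hWdef
    have hW : W ≠ ⊤ := by
      intro h
      have h1 : Module.finrank K V ≤ i := by
        rw [← finrank_top K V, ← h]
        exact (finrank_range_le_card (R := K) (fun j => δ (x j))).trans (by simp)
      omega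
    set I : Ideal A := Ideal.span (Set.range x) with hI
    let S : Set (Ideal A) := {P | P ∈ I.minimalPrimes ∧ P ≠ maximalIdeal A}
    have hS : S.Finite := (Ideal.finite_minimalPrimes_of_isNoetherianRing A I).subset
      fun P hP => hP.1
    obtain ⟨y, hym, hyW, hyS⟩ := exists_step δ p hp hK hδ W hW S hS (fun P hP => hP.1.1.1)
      (fun P hP => hP.2)
    refine ⟨Fin.cons y x, ?_, ?_, ?_⟩
    · intro j
      refine Fin.cases ?_ (fun j => ?_) j
      · simpa using hym
      · simpa using hxm j
    · have h1 : (fun j => δ ((Fin.cons y x : Fin (i + 1) → A) j)) =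
          (Fin.cons (δ y) (fun j => δ (x j)) : Fin (i + 1) → V) := by
        ext j
        refine Fin.cases ?_ (fun j => ?_) j <;> simp
      rw [h1, linearIndependent_finCons]
      exact ⟨hlin, hyW⟩
    · rw [Fin.range_cons, Ideal.span_insert, Ideal.height_eq_inf_minimalPrimes]
      refine le_iInf₂ fun Q hQ => ?_
      have hQp : Q.IsPrime := hQ.1.1
      have hIQ : I ≤ Q := le_trans le_sup_right hQ.1.2
      have hyQ : y ∈ Q := hQ.1.2 (Ideal.mem_sup_left (Ideal.mem_span_singleton_self y))
      obtain ⟨P, hP, hPQ⟩ := Ideal.exists_minimalPrimes_le hIQ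
      have hPp : P.IsPrime := hP.1.1
      by_cases hPm : P = maximalIdeal A
      · have hQm : Q = maximalIdeal A :=
          le_antisymm (le_maximalIdeal hQp.ne_top) (hPm ▸ hPQ)
        rw [hQm]
        exact hi
      · have hlt : P < Q := lt_of_le_of_ne hPQ fun h => hyS P ⟨hP, hPm⟩ (h ▸ hyQ)
        have h2 : (i : ℕ∞) ≤ P.height := hht.trans (Ideal.height_mono hP.1.2)
        have h3 := Ideal.height_add_one_le_of_lt_of_isPrime hlt
        push_cast
        exact (add_le_add_left h2 1).trans h3

/-- An ideal of height at least the (finite) height of the maximal ideal is primary for it. -/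
theorem le_radical_of_height_le [IsNoetherianRing A] (I : Ideal A)
    (h : (maximalIdeal A).height ≤ I.height) : maximalIdeal A ≤ I.radical := by
  rw [Ideal.radical_eq_sInf]
  refine le_sInf fun Q hQ => ?_
  have hQp : Q.IsPrime := hQ.2
  have h1 : I.height ≤ Q.height := Ideal.height_mono hQ.1
  by_contra hcon
  have hlt : Q < maximalIdeal A := lt_of_le_of_ne (le_maximalIdeal hQp.ne_top)
    fun h => hcon h.ge
  have h2 := Ideal.height_add_one_le_of_lt_of_isPrime hlt
  have h3 : (maximalIdeal A).height + 1 ≤ (maximalIdeal A).height :=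
    (add_le_add_left (h.trans h1) 1).trans h2
  have h4 : (maximalIdeal A).height ≠ ⊤ := Ideal.height_ne_top Ideal.IsPrime.ne_top'
  exact absurd h3 (not_le.mpr (ENat.lt_add_one_iff h4 |>.mpr le_rfl))

end Groth.Agent.Ega4late.H543.Select
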