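import Groth.Agent.UnramB.UnramNormal
import Mathlib.RingTheory.Etale.QuasiFinite
import Mathlib.RingTheory.Algebraic.Integral

/-!
# Unramified algebras over a normal domain, dominating it, are étale

Let `R` be a normal domain, `A` an `R`-algebra of finite type unramified at a prime `p`, and let
`q ≤ p` be a prime of `A` with `R → A/q` injective.  Then `A` is étale over `R` at `p`.
-/

set_option autoImplicit false

universe u

namespace Groth.Agent.Ega4late.H543.UnramInj

open TensorProduct

/-- Elements of an étale algebra over a domain are algebraic. -/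
theorem isAlgebraic_of_etale (R C : Type u) [CommRing R] [IsDomain R] [CommRing C] [Algebra R C]
    [Algebra.Etale R C] (c : C) : IsAlgebraic R c := by
  let K := FractionRing R
  have hfin : Module.Finite K (K ⊗[R] C) := Algebra.FormallyUnramified.finite_of_free K _
  have h1 : IsAlgebraic K ((1 : K) ⊗ₜ[R] c) := Algebra.IsAlgebraic.isAlgebraic _
  have h2 : IsAlgebraic R ((1 : K) ⊗ₜ[R] c) :=
    (IsFractionRing.isAlgebraic_iff R K (K ⊗[R] C)).mpr h1
  have hinj : Function.Injective (Algebra.TensorProduct.includeRight : C →ₐ[R] K ⊗[R] C) :=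
    Algebra.TensorProduct.includeRight_injective (IsFractionRing.injective R K)
  exact (isAlgebraic_algHom_iff _ hinj).mp h2

theorem isEtaleAt (R A : Type u) [CommRing R] [IsDomain R] [IsIntegrallyClosed R]
    [CommRing A] [Algebra R A] [Algebra.FiniteType R A] (p : Ideal A) [p.IsPrime]
    [Algebra.IsUnramifiedAt R p] (q : Ideal A) [q.IsPrime] (hqp : q ≤ p)
    (hinj : Function.Injective (algebraMap R (A ⧸ q))) :
    Algebra.IsEtaleAt R p := by
  obtain ⟨g, hg, C, _, _, φ, hC, hdom, hφ⟩ :=
    Groth.Agent.UnramB.UnramNormal.exists_surjection R A p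
  have hgq : g ∉ q := fun h => hg (hqp h)
  -- the map `A_g → (A/q)_g`
  have hdomq : IsDomain (A ⧸ q) := Ideal.Quotient.isDomain q
  let ψ : Localization.Away g →+* FractionRing (A ⧸ q) :=
    IsLocalization.Away.lift g (g := (algebraMap (A ⧸ q) (FractionRing (A ⧸ q))).comp
      (Ideal.Quotient.mk q)) (by
        rw [isUnit_iff_ne_zero, RingHom.comp_apply, Ne, FaithfulSMul.algebraMap_eq_zero_iff,
          Ideal.Quotient.eq_zero_iff_mem]
        exact hgq)
  have hψ : ∀ a : A, ψ (algebraMap A _ a) =
      algebraMap (A ⧸ q) (FractionRing (A ⧸ q)) (Ideal.Quotient.mk q a) :=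
    fun a => IsLocalization.Away.lift_eq g _ a
  have hinj' : Function.Injective φ := by
    rw [injective_iff_map_eq_zero]
    intro c hc
    by_contra hne
    obtain ⟨r, hr, d, hd⟩ :=
      (isAlgebraic_of_etale R C c).exists_nonzero_dvd (mem_nonZeroDivisors_of_ne_zero hne)
    have h1 : φ (algebraMap R C r) = 0 := by rw [hd, map_mul, hc, zero_mul]
    rw [φ.commutes, IsScalarTower.algebraMap_apply R A] at h1
    have h2 := hψ (algebraMap R A r)
    rw [h1, map_zero] at h2
    have h3 : Ideal.Quotient.mk q (algebraMap R A r) = 0 :=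
      (FaithfulSMul.algebraMap_eq_zero_iff _ _).mp h2.symm
    exact hr ((injective_iff_map_eq_zero _).mp hinj r h3)
  have hE : Algebra.Etale R (Localization.Away g) :=
    Algebra.Etale.of_equiv (AlgEquiv.ofBijective φ ⟨hinj', hφ⟩)
  have hsub := Algebra.basicOpen_subset_etaleLocus_iff (R := R) (A := A) (f := g) |>.mpr
    inferInstance
  exact hsub (a := ⟨p, inferInstance⟩) hg

end Groth.Agent.Ega4late.H543.UnramInj
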