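import Groth.Agent.Ega4late.H543.OmegaHat
import Groth.Agent.Ega4late.H543.Select
import Groth.Agent.Ega4late.H543.PowFinite
import Groth.Agent.Ega4late.H543.UnramInj
import Groth.Agent.CalgB.PowSer
import Groth.Agent.CalgA.FinitePow
import Mathlib.RingTheory.Support
import Mathlib.RingTheory.Unramified.Locus
import Mathlib.RingTheory.LocalRing.ResidueField.Ideal
import Mathlib.RingTheory.Finiteness.Basic

/-!
# From free completed differentials to a finite map to a power series ring, étale at `p`
-/

set_option autoImplicit false

universe u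

namespace Groth.Agent.Ega4late.H543.Backward

open IsLocalRing KaehlerDifferential TensorProduct

/-- An algebra of finite type is unramified at `p` as soon as the fibre at `p` of the differentials
is zero. -/
theorem isUnramifiedAt_of_subsingleton (B A : Type u) [CommRing B] [CommRing A] [Algebra B A]
    [Algebra.FiniteType B A] (p : Ideal A) [p.IsPrime]
    (h : Subsingleton (p.ResidueField ⊗[A] Ω[A⁄B])) : Algebra.IsUnramifiedAt B p := by
  have h1 : (⟨p, inferInstance⟩ : PrimeSpectrum A) ∈ Algebra.unramifiedLocus B A := by
    rw [Algebra.unramifiedLocus_eq_compl_support, Set.mem_compl_iff,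
      Module.mem_support_iff_nontrivial_residueField_tensorProduct]
    exact not_nontrivial_iff_subsingleton.mpr h
  exact h1

section

variable (k A : Type u) [Field k] [CommRing A]
    [IsLocalRing A] [IsNoetherianRing A] [Algebra k A] [IsAdicComplete (maximalIdeal A) A]
    [Module.Finite k (ResidueField A)]

/-- The derivation of `A` with values in the fibre of the completed differentials. -/
noncomputable def δ (p : Ideal A) [p.IsPrime] :
    Derivation ℤ A (p.ResidueField ⊗[A] AdicCompletion (maximalIdeal A) Ω[A⁄k]) :=
  (TensorProduct.mk A p.ResidueField (AdicCompletion (maximalIdeal A) Ω[A⁄k]) 1 ∘ₗ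
    AdicCompletion.of (maximalIdeal A) Ω[A⁄k]).compDer ((D k A).restrictScalars ℤ)

omit [IsNoetherianRing A] [IsAdicComplete (maximalIdeal A) A] [Module.Finite k (ResidueField A)] in
theorem δ_apply (p : Ideal A) [p.IsPrime] (a : A) :
    δ k A p a = 1 ⊗ₜ AdicCompletion.of (maximalIdeal A) Ω[A⁄k] (D k A a) := rfl

theorem span_range_δ (p : Ideal A) [p.IsPrime] :
    Submodule.span p.ResidueField (Set.range (δ k A p)) = ⊤ := by
  rw [eq_top_iff]
  intro v _
  induction v using TensorProduct.induction_on with
  | zero => exact zero_mem _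
  | add v w hv hw => exact add_mem (hv trivial) (hw trivial)
  | tmul c ω =>
    have h1 : c ⊗ₜ[A] ω = c • ((1 : p.ResidueField) ⊗ₜ[A] ω) := by
      rw [TensorProduct.smul_tmul', smul_eq_mul, mul_one]
    rw [h1]
    refine Submodule.smul_mem _ _ ?_
    have hω : ω ∈ Submodule.span A (Set.range fun a : A =>
      AdicCompletion.of (maximalIdeal A) Ω[A⁄k] (D k A a)) := by
      rw [OmegaHat.span_range_eq_top]; trivial
    clear h1
    induction hω using Submodule.span_induction with
    | mem z hz =>
      obtain ⟨a, rfl⟩ := hz
      exact Submodule.subset_span ⟨a, rfl⟩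
    | zero => rw [TensorProduct.tmul_zero]; exact zero_mem _
    | add a b _ _ ha hb => 
      rw [TensorProduct.tmul_add]
      exact add_mem (ha trivial) (hb trivial)
    | smul a b hb ih =>
      rw [TensorProduct.tmul_smul, ← algebraMap_smul p.ResidueField a]
      exact Submodule.smul_mem _ _ (ih trivial)

/-- The algebra structure given by a system of parameters. -/
theorem exists_finite_etaleAt (n : ℕ) (hn : ringKrullDim A = n)
    (p : Ideal A) [p.IsPrime] (hp : p ≠ maximalIdeal A)
    (hq : ∃ q ∈ minimalPrimes A, q ≤ p ∧ ringKrullDim (A ⧸ q) = n)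
    (hV : Module.finrank p.ResidueField
      (p.ResidueField ⊗[A] AdicCompletion (maximalIdeal A) Ω[A⁄k]) = n) :
    ∃ (_ : Algebra (MvPowerSeries (Fin n) k) A) (_ : IsScalarTower k (MvPowerSeries (Fin n) k) A),
        IsLocalHom (algebraMap (MvPowerSeries (Fin n) k) A) ∧ Module.Finite (MvPowerSeries (Fin n) k) A ∧
          Algebra.IsEtaleAt (MvPowerSeries (Fin n) k) p := by
  have hfinΩ : Module.Finite A (AdicCompletion (maximalIdeal A) Ω[A⁄k]) := OmegaHat.finite k A
  have hht : ((maximalIdeal A).height : WithBot ℕ∞) = n := by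
    rw [← hn]; exact maximalIdeal_height_eq_ringKrullDim
  have hht' : (maximalIdeal A).height = n := by exact_mod_cast hht
  obtain ⟨x, hxm, hlin, hxht⟩ := Select.exists_family (K := p.ResidueField) (δ k A p) p hp
    (fun a ha h => ha (Ideal.algebraMap_residueField_eq_zero.mp h)) (span_range_δ k A p) n
    hht'.ge hV.ge
  have hrad : maximalIdeal A ≤ (Ideal.span (Set.range x)).radical :=
    Select.le_radical_of_height_le _ (hht'.le.trans hxht)
  let w : MvPowerSeries (Fin n) k →ₐ[k] A := Ega41.PowEval.powEval (maximalIdeal A) x hxm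
  let alg : Algebra (MvPowerSeries (Fin n) k) A := w.toRingHom.toAlgebra
  have hwalg : ∀ f, algebraMap (MvPowerSeries (Fin n) k) A f = w f := fun f ↦ rfl
  have htower : IsScalarTower k (MvPowerSeries (Fin n) k) A :=
    IsScalarTower.of_algebraMap_eq fun r ↦ by rw [hwalg, w.commutes]
  have hfin : Module.Finite (MvPowerSeries (Fin n) k) A := PowFinite.finite_powEval x hxm hrad
  have hloc : IsLocalHom (algebraMap (MvPowerSeries (Fin n) k) A) :=
    PowFinite.isLocalHom_powEval x hxm
  refine ⟨alg, htower, hloc, hfin, ?_⟩
  -- unramified at `p`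
  have hX : ∀ i, algebraMap (MvPowerSeries (Fin n) k) A (MvPowerSeries.X i) = x i := fun i => by
    rw [hwalg]; exact Ega41.PowEval.powEval_X _ _ _ _
  obtain ⟨g, hg⟩ := OmegaHat.exists_lift k A
    (KaehlerDifferential.map k (MvPowerSeries (Fin n) k) A A)
  have hgs : Function.Surjective g := by
    have h1 := KaehlerDifferential.map_surjective k (MvPowerSeries (Fin n) k) A
    rw [← hg] at h1
    exact Function.Surjective.of_comp h1
  have hunr : Algebra.IsUnramifiedAt (MvPowerSeries (Fin n) k) p := by
    apply isUnramifiedAt_of_subsingleton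
    have hspan : Submodule.span p.ResidueField (Set.range fun i => δ k A p (x i)) = ⊤ := by
      refine hlin.span_eq_top_of_card_eq_finrank' ?_
      rw [Fintype.card_fin, hV]
    have hs : Function.Surjective (g.baseChange p.ResidueField) :=
      LinearMap.lTensor_surjective _ hgs
    have hz : g.baseChange p.ResidueField = 0 := by
      refine LinearMap.ext_on hspan ?_
      rintro _ ⟨i, rfl⟩
      change g.baseChange p.ResidueField (δ k A p (x i)) = 0
      rw [δ_apply, LinearMap.baseChange_tmul, ← LinearMap.comp_apply g, hg, KaehlerDifferential.map_D,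
        Algebra.algebraMap_self, RingHom.id_apply, ← hX i, Derivation.map_algebraMap,
        TensorProduct.tmul_zero]
    refine ⟨fun a b => ?_⟩
    obtain ⟨a, rfl⟩ := hs a
    obtain ⟨b, rfl⟩ := hs b
    rw [hz]
    rfl
  -- étale at `p`
  obtain ⟨q, hqmin, hqp, hdimq⟩ := hq
  have hqprime : q.IsPrime := hqmin.1.1
  have hdom : IsDomain (MvPowerSeries (Fin n) k) := NoZeroDivisors.to_isDomain _
  have hic : IsIntegrallyClosed (MvPowerSeries (Fin n) k) :=
    CalgB.PowSer.isIntegrallyClosed_mvPowerSeries k n
  refine UnramInj.isEtaleAt (MvPowerSeries (Fin n) k) A p q hqp ?_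
  have hw' : (algebraMap (MvPowerSeries (Fin n) k) (A ⧸ q)).Finite := by
    rw [RingHom.finite_algebraMap]
    infer_instance
  exact CalgA.FinitePow.injective_of_finite_of_dim _ hw' n (CalgB.PowField.ringKrullDim_eq k n).le
    hdimq.ge

omit [IsLocalRing A] [IsNoetherianRing A] [IsAdicComplete (maximalIdeal A) A] in
/-- The fibre of a module in terms of its localization. -/
theorem finrank_fibre (M : Type u) [AddCommGroup M] [Module A M] (p : Ideal A) [p.IsPrime]
    (h : Module.Free (Localization.AtPrime p) (LocalizedModule p.primeCompl M)) :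
    Module.finrank p.ResidueField (p.ResidueField ⊗[A] M) =
      Module.finrank (Localization.AtPrime p) (LocalizedModule p.primeCompl M) := by
  let e1 : Localization.AtPrime p ⊗[A] M ≃ₗ[Localization.AtPrime p]
      LocalizedModule p.primeCompl M :=
    (IsLocalizedModule.isBaseChange p.primeCompl (Localization.AtPrime p)
      (LocalizedModule.mkLinearMap p.primeCompl M)).equiv
  let e2 : p.ResidueField ⊗[Localization.AtPrime p] (Localization.AtPrime p ⊗[A] M) ≃ₗ[p.ResidueField]
      p.ResidueField ⊗[A] M :=
    TensorProduct.AlgebraTensorModule.cancelBaseChange A (Localization.AtPrime p) p.ResidueField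
      p.ResidueField M
  have h2 : Module.Free (Localization.AtPrime p) (Localization.AtPrime p ⊗[A] M) :=
    Module.Free.of_equiv e1.symm
  rw [← e2.finrank_eq, Module.finrank_baseChange, e1.finrank_eq]

end

end Groth.Agent.Ega4late.H543.Backward
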