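import Groth.Agent.Ega4late.H543.OmegaHat
import Groth.Agent.Ega41.CompKaehler
import Groth.Agent.Ega41.MvPS
import Groth.Agent.CalgB.PowField
import Mathlib.RingTheory.Etale.Locus
import Mathlib.RingTheory.Etale.Kaehler
import Mathlib.RingTheory.MvPowerSeries.Derivative
import Mathlib.RingTheory.Support
import Mathlib.RingTheory.Nakayama
import Mathlib.Algebra.Module.LocalizedModule.Basic
import Mathlib.LinearAlgebra.Dimension.Free

/-!
# From a finite map to a power series ring, étale at `p`, to free completed differentials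
-/

set_option autoImplicit false

universe u

namespace Groth.Agent.Ega4late.H543.Forward

open IsLocalRing KaehlerDifferential TensorProduct

/-- A derivation from a power series ring into a separated module which kills the constants and the
variables vanishes. -/
theorem derivation_eq_zero {σ K : Type*} [Finite σ] [CommRing K] {M : Type*} [AddCommGroup M]
    [Module K M] [Module (MvPowerSeries σ K) M] [IsScalarTower K (MvPowerSeries σ K) M]
    [IsHausdorff (Ega41.MvPS.varIdeal σ K) M] (D : Derivation K (MvPowerSeries σ K) M)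
    (hD : ∀ i, D (MvPowerSeries.X i) = 0) (f : MvPowerSeries σ K) : D f = 0 := by
  have hpoly : ∀ p : MvPolynomial σ K, D (p : MvPowerSeries σ K) = 0 := by
    intro p
    induction p using MvPolynomial.induction_on with
    | C a =>
      rw [MvPolynomial.coe_C]
      exact D.map_algebraMap a
    | add p q hp hq => rw [MvPolynomial.coe_add, map_add, hp, hq, add_zero]
    | mul_X p i hp => rw [MvPolynomial.coe_mul, D.leibniz, MvPolynomial.coe_X, hD, hp, smul_zero, smul_zero, add_zero]
  refine IsHausdorff.haus (I := Ega41.MvPS.varIdeal σ K) inferInstance _ fun n ↦ ?_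
  rw [SModEq.zero]
  have h1 : D f = D (f - ((MvPowerSeries.truncTotal (n + 1) f : MvPolynomial σ K) : MvPowerSeries σ K)) := by
    rw [map_sub, hpoly, sub_zero]
  rw [h1]
  exact Ega41.CompKaehler.derivation_mem_pow_smul _ D n _ (Ega41.MvPS.sub_truncTotal_mem (n + 1) f)

section

variable (k A : Type u) [Field k] [CommRing A]
    [IsLocalRing A] [IsNoetherianRing A] [Algebra k A] [IsAdicComplete (maximalIdeal A) A]
    [Module.Finite k (ResidueField A)] (n : ℕ) [Algebra (MvPowerSeries (Fin n) k) A]
    [IsScalarTower k (MvPowerSeries (Fin n) k) A]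

/-- The completed differentials of the variables. -/
noncomputable def ω (i : Fin n) : AdicCompletion (maximalIdeal A) Ω[A⁄k] :=
  AdicCompletion.of (maximalIdeal A) Ω[A⁄k] (D k A (algebraMap (MvPowerSeries (Fin n) k) A
    (MvPowerSeries.X i)))

omit [IsAdicComplete (maximalIdeal A) A] [Module.Finite k (ResidueField A)] in
/-- A linear map from `Ω_{A/k}` to a finitely generated module which kills the `dT_i` factors through
`Ω_{A/B}`. -/
theorem exists_factor [IsLocalHom (algebraMap (MvPowerSeries (Fin n) k) A)]
    {M : Type u} [AddCommGroup M] [Module A M] [Module.Finite A M] (π : Ω[A⁄k] →ₗ[A] M)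
    (hπ : ∀ i, π (D k A (algebraMap (MvPowerSeries (Fin n) k) A (MvPowerSeries.X i))) = 0) :
    ∃ f : Ω[A⁄MvPowerSeries (Fin n) k] →ₗ[A] M,
      f ∘ₗ (KaehlerDifferential.map k (MvPowerSeries (Fin n) k) A A) = π := by
  let B := MvPowerSeries (Fin n) k
  let : Module k M := Module.compHom M (algebraMap k A)
  have : IsScalarTower k A M := IsScalarTower.of_algebraMap_smul fun r x => rfl
  let : Module B M := Module.compHom M (algebraMap B A)
  have : IsScalarTower B A M := IsScalarTower.of_algebraMap_smul fun r x => rfl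
  have : IsScalarTower k B M := IsScalarTower.of_algebraMap_smul fun r x => by
    change algebraMap B A (algebraMap k B r) • x = algebraMap k A r • x
    rw [← IsScalarTower.algebraMap_apply]
  let d : Derivation k A M := π.compDer (D k A)
  have hd : ∀ a, d a = π (D k A a) := fun a => rfl
  have hvar : Ega41.MvPS.varIdeal (Fin n) k = maximalIdeal B :=
    (Ega41.MvPS.maximalIdeal_eq k).symm
  have hle : (maximalIdeal B).map (algebraMap B A) ≤ maximalIdeal A :=
    IsLocalRing.map_maximalIdeal_le (algebraMap B A)
  have hhaus : IsHausdorff (Ega41.MvPS.varIdeal (Fin n) k) M := by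
    rw [hvar, ← IsHausdorff.map_algebraMap_iff (S := A)]
    refine IsHausdorff.of_isLocalRing _ M ?_
    intro h
    rw [h] at hle
    exact (maximalIdeal.isMaximal A).ne_top (top_le_iff.mp hle)
  have hdB : ∀ b : B, d (algebraMap B A b) = 0 := fun b =>
    derivation_eq_zero (d.compAlgebraMap B) (fun i => hπ i) b
  let d' : Derivation B A M :=
    { toFun := d
      map_add' := d.map_add
      map_smul' := fun b a => by
        rw [Algebra.smul_def, d.leibniz, hdB, smul_zero, add_zero, algebraMap_smul]
        rfl
      map_one_eq_zero' := d.map_one_eq_zero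
      leibniz' := d.leibniz }
  refine ⟨d'.liftKaehlerDifferential, ?_⟩
  ext a
  change d'.liftKaehlerDifferential (KaehlerDifferential.map k B A A (D k A a)) = π (D k A a)
  rw [KaehlerDifferential.map_D, Algebra.algebraMap_self, RingHom.id_apply,
    Derivation.liftKaehlerDifferential_comp_D]
  rfl

/-- `Ω_{A/B}` maps onto `Ω̂/(dT_i)`. -/
theorem exists_surjective [IsLocalHom (algebraMap (MvPowerSeries (Fin n) k) A)] :
    ∃ f : Ω[A⁄MvPowerSeries (Fin n) k] →ₗ[A]
      (AdicCompletion (maximalIdeal A) Ω[A⁄k] ⧸ Submodule.span A (Set.range (ω k A n))),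
      Function.Surjective f := by
  have hfinΩ : Module.Finite A (AdicCompletion (maximalIdeal A) Ω[A⁄k]) := OmegaHat.finite k A
  let N := Submodule.span A (Set.range (ω k A n))
  let π : Ω[A⁄k] →ₗ[A] (AdicCompletion (maximalIdeal A) Ω[A⁄k] ⧸ N) :=
    N.mkQ ∘ₗ AdicCompletion.of (maximalIdeal A) Ω[A⁄k]
  have hπ : Function.Surjective π := N.mkQ_surjective.comp (OmegaHat.of_surjective k A)
  obtain ⟨f, hf⟩ := exists_factor k A n π (fun i => by
    change N.mkQ (ω k A n i) = 0
    rw [Submodule.mkQ_apply, Submodule.Quotient.mk_eq_zero]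
    exact Submodule.subset_span ⟨i, rfl⟩)
  refine ⟨f, ?_⟩
  rw [← hf] at hπ
  exact Function.Surjective.of_comp hπ

/-- The partial derivatives extend to the étale localization. -/
theorem exists_dual [Module.Finite (MvPowerSeries (Fin n) k) A] (p : Ideal A) [p.IsPrime]
    [Algebra.IsEtaleAt (MvPowerSeries (Fin n) k) p] (i : Fin n) :
    ∃ φ : AdicCompletion (maximalIdeal A) Ω[A⁄k] →ₗ[A] Localization.AtPrime p,
      ∀ j, φ (ω k A n j) = if i = j then 1 else 0 := by
  classical
  let B := MvPowerSeries (Fin n) k
  let Ap := Localization.AtPrime p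
  have : Algebra.FormallyEtale B Ap := ‹Algebra.IsEtaleAt (MvPowerSeries (Fin n) k) p›
  -- the map `Ω_{A/k} → A_p`
  let ψ₀ : Ω[B⁄k] →ₗ[B] Ap :=
    (Algebra.linearMap B Ap) ∘ₗ (MvPowerSeries.pderiv k i).liftKaehlerDifferential
  let ψ₁ : Ω[Ap⁄k] →ₗ[Ap] Ap := (ψ₀.liftBaseChange Ap) ∘ₗ
    (KaehlerDifferential.tensorKaehlerEquivOfFormallyEtale k B Ap).symm.toLinearMap
  let ψ : Ω[A⁄k] →ₗ[A] Ap := (ψ₁.restrictScalars A) ∘ₗ (KaehlerDifferential.map k k A Ap)
  have hψB : ∀ b : B, ψ (D k A (algebraMap B A b)) =
      algebraMap B Ap (MvPowerSeries.pderiv k i b) := by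
    intro b
    change ψ₁ (KaehlerDifferential.map k k A Ap (D k A (algebraMap B A b))) = _
    rw [KaehlerDifferential.map_D, ← IsScalarTower.algebraMap_apply]
    change (ψ₀.liftBaseChange Ap) ((KaehlerDifferential.tensorKaehlerEquivOfFormallyEtale k B Ap).symm
      (D k Ap (algebraMap B Ap b))) = _
    rw [KaehlerDifferential.tensorKaehlerEquivOfFormallyEtale_symm_D_algebraMap]
    simp only [ψ₀, LinearMap.liftBaseChange_tmul, one_smul, LinearMap.comp_apply,
      Algebra.linearMap_apply]
    exact congrArg _ (Derivation.liftKaehlerDifferential_comp_D _ _)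
  -- its image is contained in a finitely generated module
  obtain ⟨s, hs⟩ := (inferInstance : Module.Finite B A).fg_top
  let M : Submodule A Ap := Submodule.span A ({1} ∪ (fun a => ψ (D k A a)) '' (s : Set A))
  have hMfin : Module.Finite A M := by
    refine Module.Finite.span_of_finite A ?_
    exact (Set.finite_singleton 1).union (s.finite_toSet.image _)
  have h1 : ∀ a : A, ψ (D k A a) ∈ M := by
    intro a
    have ha : a ∈ Submodule.span B (s : Set A) := by rw [hs]; trivial
    induction ha using Submodule.span_induction with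
    | mem a ha => exact Submodule.subset_span (Or.inr ⟨a, ha, rfl⟩)
    | zero => rw [map_zero, map_zero]; exact zero_mem _
    | add a b _ _ ha hb => rw [map_add, map_add]; exact add_mem ha hb
    | smul b a _ ih =>
      rw [Algebra.smul_def, Derivation.leibniz, map_add, map_smul, map_smul, hψB]
      refine add_mem (Submodule.smul_mem _ _ ih) (Submodule.smul_mem _ _ ?_)
      have h2 : algebraMap B Ap (MvPowerSeries.pderiv k i b) =
          algebraMap B A (MvPowerSeries.pderiv k i b) • (1 : Ap) := by
        rw [Algebra.smul_def, mul_one, ← IsScalarTower.algebraMap_apply]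
      rw [h2]
      exact Submodule.smul_mem _ _ (Submodule.subset_span (Or.inl rfl))
  have h3 : ∀ z, ψ z ∈ M := by
    intro z
    have hz : z ∈ Submodule.span A (Set.range (D k A)) := by
      rw [KaehlerDifferential.span_range_derivation]; trivial
    induction hz using Submodule.span_induction with
    | mem z hz => obtain ⟨a, rfl⟩ := hz; exact h1 a
    | zero => rw [map_zero]; exact zero_mem _
    | add a b _ _ ha hb => rw [map_add]; exact add_mem ha hb
    | smul a z _ ih => rw [map_smul]; exact Submodule.smul_mem _ _ ih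
  obtain ⟨g, hg⟩ := OmegaHat.exists_lift k A (ψ.codRestrict M h3)
  refine ⟨M.subtype ∘ₗ g, fun j => ?_⟩
  have h4 : g (ω k A n j) = ψ.codRestrict M h3 (D k A (algebraMap B A (MvPowerSeries.X j))) := by
    rw [← hg]; rfl
  rw [LinearMap.comp_apply, h4]
  change ψ (D k A (algebraMap B A (MvPowerSeries.X j))) = _
  rw [hψB, MvPowerSeries.pderiv_X]
  by_cases hij : i = j
  · subst hij; simp
  · rw [if_neg hij, Pi.single_eq_of_ne (fun h => hij h.symm), map_zero]

/-- Unramifiedness at `p`: modulo the `dT_i`, the completed differentials are killed by an element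
outside `p`. -/
theorem exists_smul_mem [IsLocalHom (algebraMap (MvPowerSeries (Fin n) k) A)]
    (p : Ideal A) [p.IsPrime] [Algebra.IsUnramifiedAt (MvPowerSeries (Fin n) k) p]
    (y : AdicCompletion (maximalIdeal A) Ω[A⁄k]) :
    ∃ s : A, s ∉ p ∧ s • y ∈ Submodule.span A (Set.range (ω k A n)) := by
  obtain ⟨f, hf⟩ := exists_surjective k A n
  let B := MvPowerSeries (Fin n) k
  obtain ⟨η, hη⟩ := hf (Submodule.Quotient.mk y)
  have : Algebra.FormallyUnramified B (Localization.AtPrime p) :=
    ‹Algebra.IsUnramifiedAt (MvPowerSeries (Fin n) k) p›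
  have hsub : Subsingleton Ω[Localization.AtPrime p⁄B] := inferInstance
  have h0 : KaehlerDifferential.map B B A (Localization.AtPrime p) η = 0 := Subsingleton.elim _ _
  obtain ⟨s, hs⟩ := (IsLocalizedModule.eq_zero_iff p.primeCompl
    (KaehlerDifferential.map B B A (Localization.AtPrime p))).mp h0
  refine ⟨s, s.2, ?_⟩
  rw [← Submodule.Quotient.mk_eq_zero, Submodule.Quotient.mk_smul, ← hη]
  have hs' : (s : A) • η = 0 := hs
  rw [← map_smul, hs', map_zero]

/-- The completed differentials are free of rank `n` at `p`. -/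
theorem free_finrank [IsLocalHom (algebraMap (MvPowerSeries (Fin n) k) A)]
    [Module.Finite (MvPowerSeries (Fin n) k) A]
    (p : Ideal A) [p.IsPrime] [Algebra.IsEtaleAt (MvPowerSeries (Fin n) k) p] :
    Module.Free (Localization.AtPrime p)
        (LocalizedModule p.primeCompl (AdicCompletion (IsLocalRing.maximalIdeal A) Ω[A⁄k])) ∧
      Module.finrank (Localization.AtPrime p)
        (LocalizedModule p.primeCompl (AdicCompletion (IsLocalRing.maximalIdeal A) Ω[A⁄k])) = n := by
  classical
  let Ap := Localization.AtPrime p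
  let Ω := AdicCompletion (IsLocalRing.maximalIdeal A) Ω[A⁄k]
  let L := LocalizedModule p.primeCompl Ω
  let ι : Ω →ₗ[A] L := LocalizedModule.mkLinearMap p.primeCompl Ω
  have : Algebra.FormallyEtale (MvPowerSeries (Fin n) k) Ap :=
    ‹Algebra.IsEtaleAt (MvPowerSeries (Fin n) k) p›
  have hunr : Algebra.IsUnramifiedAt (MvPowerSeries (Fin n) k) p :=
    (inferInstance : Algebra.FormallyUnramified (MvPowerSeries (Fin n) k) Ap)
  choose φ hφ using exists_dual k A n p
  have hunits : ∀ x : p.primeCompl, IsUnit (algebraMap A (Module.End A Ap) x) :=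
    fun x => IsLocalizedModule.map_units (Algebra.linearMap A Ap) x
  let φ' : Fin n → (L →ₗ[Ap] Ap) := fun i =>
    (IsLocalizedModule.lift p.primeCompl ι (φ i) hunits).extendScalarsOfIsLocalization
        p.primeCompl Ap
  have hφ' : ∀ i y, φ' i (ι y) = φ i y := fun i y =>
    IsLocalizedModule.lift_apply p.primeCompl ι (φ i) hunits y
  have hli : LinearIndependent Ap (fun j => ι (ω k A n j)) := by
    rw [Fintype.linearIndependent_iff]
    intro c hc i
    have h1 := congrArg (φ' i) hc
    rw [map_zero, map_sum] at h1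
    simp only [map_smul, hφ', hφ, smul_eq_mul, mul_ite, mul_one, mul_zero, Finset.sum_ite_eq,
      Finset.mem_univ, if_true] at h1
    exact h1
  have hspan : ⊤ ≤ Submodule.span Ap (Set.range fun j => ι (ω k A n j)) := by
    intro z _
    obtain ⟨⟨y, t⟩, hy⟩ := IsLocalizedModule.surj p.primeCompl ι z
    obtain ⟨s, hs, hsy⟩ := exists_smul_mem k A n p y
    have h1 : ι (s • y) ∈ Submodule.span Ap (Set.range fun j => ι (ω k A n j)) := by
      have h2 : (Submodule.span A (Set.range (ω k A n))).map ι ≤
          (Submodule.span Ap (Set.range fun j => ι (ω k A n j))).restrictScalars A := by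
        rw [Submodule.map_span, Submodule.span_le]
        rintro _ ⟨_, ⟨j, rfl⟩, rfl⟩
        exact Submodule.subset_span ⟨j, rfl⟩
      exact h2 ⟨_, hsy, rfl⟩
    have hy' : (t : A) • z = ι y := hy
    rw [map_smul, ← hy', smul_smul, ← algebraMap_smul Ap] at h1
    have hu : IsUnit (algebraMap A Ap (s * t)) :=
      IsLocalization.map_units Ap (⟨s * t, p.primeCompl.mul_mem hs t.2⟩ : p.primeCompl)
    exact (Submodule.smul_mem_iff_of_isUnit _ hu).mp h1
  let b : Module.Basis (Fin n) Ap L := Module.Basis.mk hli hspan
  exact ⟨Module.Free.of_basis b, by rw [Module.finrank_eq_card_basis b, Fintype.card_fin]⟩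

end

end Groth.Agent.Ega4late.H543.Forward
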