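import Mathlib.RingTheory.Kaehler.Basic
import Mathlib.RingTheory.AdicCompletion.Completeness
import Mathlib.RingTheory.AdicCompletion.Functoriality
import Mathlib.RingTheory.AdicCompletion.Noetherian
import Mathlib.RingTheory.LocalRing.ResidueField.Basic
import Groth.Agent.Ega41.PowComplete

/-!
# The completed module of differentials of a complete Noetherian local algebra

Let `k → A` be a ring map, `A` a complete Noetherian local ring whose residue field is finite over
`k`, `m` its maximal ideal, and `Ω̂` the `m`-adic completion of `Ω_{A/k}`.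

* `of_surjective`: `Ω_{A/k} → Ω̂` is surjective;
* `finite`: `Ω̂` is a finitely generated `A`-module;
* `exists_lift`: a linear map from `Ω_{A/k}` to an `m`-adically separated module (for instance a
  finitely generated one) factors through `Ω̂`.
-/

set_option autoImplicit false

universe u v w

namespace Groth.Agent.Ega4late.H543.OmegaHat

open IsLocalRing KaehlerDifferential

variable (k : Type u) (A : Type v) [CommRing k] [CommRing A] [IsLocalRing A] [IsNoetherianRing A]
  [Algebra k A]

/-- Modulo `m Ω`, the module of differentials is generated by the differentials of a finite set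
of elements. -/
theorem exists_finset_span [Module.Finite k (ResidueField A)] :
    ∃ s : Finset A, Submodule.span A ((D k A) '' (s : Set A)) ⊔
      (maximalIdeal A • ⊤ : Submodule A Ω[A⁄k]) = ⊤ := by
  classical
  obtain ⟨S, hS⟩ := (inferInstance : IsNoetherianRing A).noetherian (maximalIdeal A)
  obtain ⟨T', hT'⟩ := (inferInstance : Module.Finite k (ResidueField A)).fg_top
  choose g hg using (residue_surjective (R := A))
  let T : Finset A := T'.image g
  refine ⟨S ∪ T, ?_⟩
  set N : Submodule A Ω[A⁄k] := Submodule.span A ((D k A) '' ((S ∪ T : Finset A) : Set A)) ⊔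
      (maximalIdeal A • ⊤ : Submodule A Ω[A⁄k]) with hN
  have hmem : ∀ a ∈ S ∪ T, D k A a ∈ N := fun a ha =>
    Submodule.mem_sup_left (Submodule.subset_span ⟨a, ha, rfl⟩)
  -- elements of the maximal ideal
  have h1 : ∀ y ∈ maximalIdeal A, D k A y ∈ N := by
    intro y hy
    rw [← hS] at hy
    induction hy using Submodule.span_induction with
    | mem z hz => exact hmem z (Finset.mem_union_left _ hz)
    | zero => simp
    | add a b _ _ ha hb => rw [map_add]; exact add_mem ha hb
    | smul a b hb ih =>
      rw [smul_eq_mul, Derivation.leibniz]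
      refine add_mem (Submodule.smul_mem _ _ ih) (Submodule.mem_sup_right ?_)
      exact Submodule.smul_mem_smul (hS ▸ hb) trivial
  -- `k`-combinations of `T`
  have h2 : ∀ z ∈ Submodule.span k (T : Set A), D k A z ∈ N := by
    intro z hz
    induction hz using Submodule.span_induction with
    | mem z hz => exact hmem z (Finset.mem_union_right _ hz)
    | zero => simp
    | add a b _ _ ha hb => rw [map_add]; exact add_mem ha hb
    | smul a b hb ih =>
      rw [Derivation.map_smul, ← algebraMap_smul A]
      exact Submodule.smul_mem _ _ ih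
  have h3 : ∀ r : ResidueField A, ∃ z ∈ Submodule.span k (T : Set A), residue A z = r := by
    intro r
    have hr : r ∈ Submodule.span k (T' : Set (ResidueField A)) := by rw [hT']; trivial
    induction hr using Submodule.span_induction with
    | mem z hz => exact ⟨g z, Submodule.subset_span (by simp [T]; exact ⟨z, hz, rfl⟩), hg z⟩
    | zero => exact ⟨0, zero_mem _, map_zero _⟩
    | add a b _ _ ha hb =>
      obtain ⟨z, hz, rfl⟩ := ha
      obtain ⟨w, hw, rfl⟩ := hb
      exact ⟨z + w, add_mem hz hw, map_add _ _ _⟩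
    | smul c b hb ih =>
      obtain ⟨z, hz, rfl⟩ := ih
      refine ⟨c • z, Submodule.smul_mem _ _ hz, ?_⟩
      rw [Algebra.smul_def, map_mul, Algebra.smul_def]
      rfl
  rw [eq_top_iff, ← KaehlerDifferential.span_range_derivation k A, Submodule.span_le]
  rintro _ ⟨a, rfl⟩
  obtain ⟨z, hz, hza⟩ := h3 (residue A a)
  have h4 : a - z ∈ maximalIdeal A := by
    rw [← residue_eq_zero_iff, map_sub, hza, sub_self]
  have h5 : D k A a = D k A z + D k A (a - z) := by rw [map_sub]; abel
  rw [h5]
  exact add_mem (h2 z hz) (h1 _ h4)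

/-- A finite free module mapping to `Ω_{A/k}`, onto `Ω_{A/k}/m`. -/
theorem exists_pi [Module.Finite k (ResidueField A)] :
    ∃ (r : ℕ) (f : (Fin r → A) →ₗ[A] Ω[A⁄k]),
      Function.Surjective ((maximalIdeal A • ⊤ : Submodule A Ω[A⁄k]).mkQ ∘ₗ f) := by
  obtain ⟨s, hs⟩ := exists_finset_span k A
  let e : Fin s.card → A := fun i => (s.equivFin.symm i : A)
  refine ⟨s.card, Fintype.linearCombination A (fun i => D k A (e i)), ?_⟩
  rw [← LinearMap.range_eq_top, LinearMap.range_comp, Fintype.range_linearCombination]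
  have h1 : Set.range (fun i => D k A (e i)) = (D k A) '' (s : Set A) := by
    ext z
    constructor
    · rintro ⟨i, rfl⟩
      exact ⟨e i, (s.equivFin.symm i).2, rfl⟩
    · rintro ⟨a, ha, rfl⟩
      exact ⟨s.equivFin ⟨a, ha⟩, by simp [e]⟩
  rw [h1, eq_top_iff]
  intro y _
  obtain ⟨y, rfl⟩ := Submodule.mkQ_surjective _ y
  have hy : y ∈ Submodule.span A ((D k A) '' (s : Set A)) ⊔
      (maximalIdeal A • ⊤ : Submodule A Ω[A⁄k]) := by rw [hs]; trivial
  obtain ⟨a, ha, b, hb, rfl⟩ := Submodule.mem_sup.mp hy
  refine ⟨a, ha, ?_⟩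
  rw [map_add, Submodule.mkQ_apply _ b, (Submodule.Quotient.mk_eq_zero _).mpr hb, add_zero]

section complete

variable [IsAdicComplete (maximalIdeal A) A] [Module.Finite k (ResidueField A)]

theorem exists_pi_surjective :
    ∃ (r : ℕ) (f : (Fin r → A) →ₗ[A] Ω[A⁄k]),
      Function.Surjective (AdicCompletion.of (maximalIdeal A) Ω[A⁄k] ∘ₗ f) := by
  obtain ⟨r, f, hf⟩ := exists_pi k A
  refine ⟨r, f, ?_⟩
  have h1 := AdicCompletion.map_surjective_of_mkQ_comp_surjective hf
  have : IsPrecomplete (maximalIdeal A) (Fin r → A) :=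
    Ega41.PowComplete.isPrecomplete_pi _ _
  have h2 := h1.comp (AdicCompletion.of_surjective (maximalIdeal A) (Fin r → A))
  intro y
  obtain ⟨x, hx⟩ := h2 y
  refine ⟨x, ?_⟩
  rw [← hx, Function.comp_apply, AdicCompletion.map_of]
  rfl

/-- `Ω_{A/k} → Ω̂` is surjective. -/
theorem of_surjective :
    Function.Surjective (AdicCompletion.of (maximalIdeal A) Ω[A⁄k]) := by
  obtain ⟨r, f, hf⟩ := exists_pi_surjective k A
  exact Function.Surjective.of_comp (f := AdicCompletion.of (maximalIdeal A) Ω[A⁄k]) (g := f) hf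

/-- `Ω̂` is finitely generated. -/
theorem finite : Module.Finite A (AdicCompletion (maximalIdeal A) Ω[A⁄k]) := by
  obtain ⟨r, f, hf⟩ := exists_pi_surjective k A
  exact Module.Finite.of_surjective _ hf

/-- `Ω̂` is generated by the differentials of the elements of `A`. -/
theorem span_range_eq_top :
    Submodule.span A (Set.range fun a : A =>
      AdicCompletion.of (maximalIdeal A) Ω[A⁄k] (D k A a)) = ⊤ := by
  have h : Set.range (fun a : A => AdicCompletion.of (maximalIdeal A) Ω[A⁄k] (D k A a)) =
      AdicCompletion.of (maximalIdeal A) Ω[A⁄k] '' Set.range (D k A) := by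
    rw [← Set.range_comp]; rfl
  rw [h, ← Submodule.map_span, KaehlerDifferential.span_range_derivation, Submodule.map_top,
    LinearMap.range_eq_top]
  exact of_surjective k A

/-- The universal property of `Ω̂`. -/
theorem exists_lift {M : Type*} [AddCommGroup M] [Module A M] [IsHausdorff (maximalIdeal A) M]
    (f : Ω[A⁄k] →ₗ[A] M) :
    ∃ g : AdicCompletion (maximalIdeal A) Ω[A⁄k] →ₗ[A] M,
      g ∘ₗ AdicCompletion.of (maximalIdeal A) Ω[A⁄k] = f := by
  have hker : LinearMap.ker (AdicCompletion.of (maximalIdeal A) Ω[A⁄k]) ≤ LinearMap.ker f := by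
    intro x hx
    rw [LinearMap.mem_ker] at hx ⊢
    apply IsHausdorff.haus (inferInstance : IsHausdorff (maximalIdeal A) M)
    intro n
    rw [SModEq.zero]
    have h1 : AdicCompletion.eval (maximalIdeal A) Ω[A⁄k] n
        (AdicCompletion.of (maximalIdeal A) Ω[A⁄k] x) = 0 := by rw [hx, map_zero]
    rw [AdicCompletion.eval_of, Submodule.mkQ_apply, Submodule.Quotient.mk_eq_zero] at h1
    have h2 : f x ∈ ((maximalIdeal A) ^ n • ⊤ : Submodule A Ω[A⁄k]).map f := ⟨x, h1, rfl⟩
    rw [Submodule.map_smul''] at h2
    exact Submodule.smul_mono le_rfl le_top h2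
  let e := (AdicCompletion.of (maximalIdeal A) Ω[A⁄k]).quotKerEquivOfSurjective (of_surjective k A)
  refine ⟨(LinearMap.ker (AdicCompletion.of (maximalIdeal A) Ω[A⁄k])).liftQ f hker ∘ₗ
    e.symm.toLinearMap, ?_⟩
  ext x
  rw [LinearMap.comp_apply, LinearMap.comp_apply]
  have h3 : e.symm (AdicCompletion.of (maximalIdeal A) Ω[A⁄k] x) = Submodule.Quotient.mk x := by
    rw [LinearEquiv.symm_apply_eq]
    rfl
  rw [LinearEquiv.coe_coe, h3, Submodule.liftQ_apply]

theorem exists_lift_of_finite {M : Type*} [AddCommGroup M] [Module A M] [Module.Finite A M]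
    (f : Ω[A⁄k] →ₗ[A] M) :
    ∃ g : AdicCompletion (maximalIdeal A) Ω[A⁄k] →ₗ[A] M,
      g ∘ₗ AdicCompletion.of (maximalIdeal A) Ω[A⁄k] = f :=
  exists_lift k A f

end complete

end Groth.Agent.Ega4late.H543.OmegaHat
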